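import Cfsg.Agent.R2.T1.Mu.Sl
import Cfsg.Agent.R2.T1.Inf.Frame

/-!
# MU27 (S5771): the Lie algebra of an involution with 32 fixed weights, abstract form (helper27)

* `Inv t` : the properties of `AL t` (nondegenerate, contains the semisimple elements `z`, `z ^ 2 = P`, with
  tori `tz P z a` in the group);
* `triv`, `exists_z`, `comm` : invariant elements under commuting involutions.
-/

set_option autoImplicit false
set_option maxRecDepth 100000

namespace Cfsg.Agent.R2.T1.Mu

open Cfsg Cfsg.Lie Matrix Module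
open Cfsg.Agent.R2.T1 Cfsg.Agent.R2.PX
open Cfsg.Agent.H943.E7V.Block (D1 rho)
open Cfsg.Agent.H952.F4 (ev)

universe u
section
variable {F : Type u} [Field F] {A B : Matrix D1 D1 F}

/-- linear combination of the matrix units -/
def th (A B : Matrix D1 D1 F) (a b c d : F) : Matrix D1 D1 F := a • (A * B) + b • A + c • B + d • (B * A)

theorem Tri.th_mul (h : Tri A B) (a b c d a' b' c' d' : F) : th A B a b c d * th A B a' b' c' d' =
    th A B (a * a' + b * c') (a * b' + b * d') (c * a' + d * c') (c * b' + d * d') := by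
  have e1 : A * B * (A * B) = A * B := by rw [← mul_assoc, h.ABA]
  have e2 : A * B * A = A := h.ABA
  have e3 : A * B * B = 0 := by rw [mul_assoc, h.BB, mul_zero]
  have e4 : A * B * (B * A) = 0 := by rw [← mul_assoc, e3, zero_mul]
  have e5 : A * (A * B) = 0 := by rw [← mul_assoc, h.AA, zero_mul]
  have e6 : A * A = 0 := h.AA
  have e7 : A * (B * A) = A := by rw [← mul_assoc, h.ABA]
  have e8 : B * (A * B) = B := by rw [← mul_assoc, h.BAB]
  have e9 : B * B = 0 := h.BB
  have e10 : B * (B * A) = 0 := by rw [← mul_assoc, h.BB, zero_mul]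
  have e11 : B * A * (A * B) = 0 := by rw [mul_assoc, e5, mul_zero]
  have e12 : B * A * A = 0 := by rw [mul_assoc, h.AA, mul_zero]
  have e13 : B * A * B = B := h.BAB
  have e14 : B * A * (B * A) = B * A := by rw [← mul_assoc, h.BAB]
  unfold th
  simp only [mul_add, add_mul, smul_mul_smul_comm, e1, e2, e3, e4, e5, e6, e7, e8, e9, e10, e11, e12, e13, e14,
    smul_zero, add_zero, zero_add, add_smul]
  abel

theorem th_add (a b c d a' b' c' d' : F) : th A B a b c d + th A B a' b' c' d' =
    th A B (a + a') (b + b') (c + c') (d + d') := by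
  unfold th
  simp only [add_smul]
  abel

theorem th_smul (k a b c d : F) : k • th A B a b c d = th A B (k * a) (k * b) (k * c) (k * d) := by
  unfold th
  simp only [smul_add, smul_smul]

theorem th_sub (a b c d a' b' c' d' : F) : th A B a b c d - th A B a' b' c' d' =
    th A B (a - a') (b - b') (c - c') (d - d') := by
  unfold th
  simp only [sub_smul]
  abel

theorem th_P : A * B + B * A = th A B 1 0 0 1 := by
  unfold th
  simp

theorem th_A : A = th A B 0 1 0 0 := by
  unfold th
  simp

theorem th_B : B = th A B 0 0 1 0 := by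
  unfold th
  simp

/-- the elements of `AL t` -/
theorem th_M (x y w : F) : x • A + y • (A * B - B * A) + w • B = th A B y x w (-y) := by
  unfold th
  rw [smul_sub, neg_smul]
  abel

/-- the group elements -/
def tg (A B : Matrix D1 D1 F) (a b c d : F) : Matrix D1 D1 F := 1 - (A * B + B * A) + th A B a b c d

theorem Tri.tg_mul (h : Tri A B) (a b c d a' b' c' d' : F) : tg A B a b c d * tg A B a' b' c' d' =
    tg A B (a * a' + b * c') (a * b' + b * d') (c * a' + d * c') (c * b' + d * d') := by
  have e1 : (A * B + B * A) * (A * B + B * A) = A * B + B * A := by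
    rw [th_P, h.th_mul]
    congr 1 <;> ring
  have e2 : (A * B + B * A) * th A B a' b' c' d' = th A B a' b' c' d' := by
    rw [th_P, h.th_mul]
    congr 1 <;> ring
  have e3 : th A B a b c d * (A * B + B * A) = th A B a b c d := by
    rw [th_P, h.th_mul]
    congr 1 <;> ring
  unfold tg
  rw [← h.th_mul]
  generalize A * B + B * A = P at *
  generalize th A B a b c d = X at *
  generalize th A B a' b' c' d' = Y at *
  calc (1 - P + X) * (1 - P + Y) = 1 - P - P + P * P + Y - P * Y + X - X * P + X * Y := by noncomm_ring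
    _ = 1 - P + X * Y := by rw [e1, e2, e3]; abel

/-- **`SL₂`** -/
theorem Sl.sl2 {t : Gh F} (h : Sl t A B) {a b c d : F} (hd : a * d - b * c = 1) : ∃ g : Gh F, rho F g = tg A B a b c d := by
  have hA : ∀ u : F, ∃ g : Gh F, rho F g = tg A B 1 u 0 1 := by
    intro u
    obtain ⟨g, hg⟩ := h.expA u
    refine ⟨g, ?_⟩
    rw [hg]
    unfold tg th
    rw [one_smul, one_smul, zero_smul]
    abel
  have hB : ∀ u : F, ∃ g : Gh F, rho F g = tg A B 1 0 u 1 := by
    intro u
    obtain ⟨g, hg⟩ := h.expB u
    refine ⟨g, ?_⟩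
    rw [hg]
    unfold tg th
    rw [one_smul, one_smul, zero_smul]
    abel
  have key : ∀ a b c d : F, a * d - b * c = 1 → c ≠ 0 → ∃ g : Gh F, rho F g = tg A B a b c d := by
    intro a b c d hd hc
    obtain ⟨g1, h1⟩ := hA ((a - 1) / c)
    obtain ⟨g2, h2⟩ := hB c
    obtain ⟨g3, h3⟩ := hA ((d - 1) / c)
    refine ⟨g1 * g2 * g3, ?_⟩
    rw [map_mul, map_mul, h1, h2, h3, h.tri.tg_mul, h.tri.tg_mul]
    have e : b = (a * d - 1) / c := by
      rw [eq_div_iff hc]
      linear_combination -hd
    rw [e]
    congr 1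
    · field_simp
      ring
    · field_simp
      ring
    · field_simp
      ring
    · field_simp
      ring
  by_cases hc : c = 0
  · subst hc
    have ha : a ≠ 0 := by
      rintro rfl
      simp at hd
    obtain ⟨g, hg⟩ := key a b a (b + d) (by linear_combination hd) ha
    obtain ⟨g1, h1⟩ := hB (-1)
    refine ⟨g1 * g, ?_⟩
    rw [map_mul, hg, h1, h.tri.tg_mul]
    congr 1 <;> ring
  · exact key a b c d hd hc

/-! ### abstract form -/

/-- the projection on the `-1`-eigenspace of `t` -/
noncomputable def pj (t : Gh F) : Matrix D1 D1 F := (2 : F)⁻¹ • (1 - rho F t)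

/-- the torus elements -/
noncomputable def tz (P z : Matrix D1 D1 F) (a : F) : Matrix D1 D1 F :=
  1 - P + (a / 2) • (P + z) + (a⁻¹ / 2) • (P - z)

/-- the properties of `AL t` -/
structure Inv (t : Gh F) : Prop where
  two : (2 : F) ≠ 0
  sq : t * t = 1
  ne : pj t ≠ 0
  left : ∀ M ∈ AL t, pj t * M = M
  right : ∀ M ∈ AL t, M * pj t = M
  sqr : ∀ M ∈ AL t, ∃ c : F, M * M = c • pj t
  nd : ∀ M ∈ AL t, M ≠ 0 → ∃ M' ∈ AL t, ∃ c : F, c ≠ 0 ∧ M * M' + M' * M = c • pj t
  exp : ∀ M ∈ AL t, M * M = pj t → ∀ a : F, a ≠ 0 → ∃ g : Gh F, rho F g = tz (pj t) M a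
  cm : ∃ M ∈ AL t, ∃ M' ∈ AL t, M * M' - M' * M ∈ AL t ∧ M * M' - M' * M ≠ 0

theorem rho_sq {t : Gh F} (h : t * t = 1) : rho F t * rho F t = 1 := by rw [← map_mul, h, map_one]

theorem pj_sq (h2 : (2 : F) ≠ 0) {t : Gh F} (h : t * t = 1) : pj t * pj t = pj t := by
  unfold pj
  rw [smul_mul_smul_comm]
  have e : (1 - rho F t) * (1 - rho F t) = (2 : F) • (1 - rho F t) := by
    rw [sub_mul, mul_sub, mul_sub, rho_sq h, mul_one, one_mul, mul_one, two_smul]
    abel
  rw [e, smul_smul, mul_assoc, inv_mul_cancel₀ h2, mul_one]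

theorem Sl.pj_eq (h2 : (2 : F) ≠ 0) {t : Gh F} (h : Sl t A B) : pj t = A * B + B * A := by
  unfold pj
  rw [h.rho_eq, sub_sub_cancel, smul_smul, inv_mul_cancel₀ h2, one_smul]

theorem Sl.inv (h2 : (2 : F) ≠ 0) {t : Gh F} (ht : t * t = 1) (h : Sl t A B) : Inv t := by
  have hP := h.pj_eq h2
  have hT := h.tri
  have hAP : A * (A * B + B * A) = A := by rw [mul_add, ← mul_assoc, ← mul_assoc, hT.AA, zero_mul, zero_add, hT.ABA]
  have hPne : A * B + B * A ≠ 0 := by
    intro e
    apply h.ne
    rw [← hAP, e, mul_zero]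
  have hsp : ∀ M ∈ AL t, ∃ x y w : F, M = th A B y x w (-y) := by
    intro M hM
    obtain ⟨x, y, w, e⟩ := h.span M hM
    exact ⟨x, y, w, by rw [e, th_M]⟩
  have hsq : ∀ x y w : F, th A B y x w (-y) * th A B y x w (-y) = (y * y + x * w) • (A * B + B * A) := by
    intro x y w
    rw [hT.th_mul, th_P (A := A) (B := B), th_smul]
    congr 1 <;> ring
  refine ⟨h2, ht, by rw [hP]; exact hPne, ?_, ?_, ?_, ?_, ?_, ?_⟩
  · intro M hM
    obtain ⟨x, y, w, rfl⟩ := hsp M hM
    rw [hP, th_P (A := A) (B := B), hT.th_mul]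
    congr 1 <;> ring
  · intro M hM
    obtain ⟨x, y, w, rfl⟩ := hsp M hM
    rw [hP, th_P (A := A) (B := B), hT.th_mul]
    congr 1 <;> ring
  · intro M hM
    obtain ⟨x, y, w, rfl⟩ := hsp M hM
    exact ⟨_, by rw [hsq, hP]⟩
  · intro M hM h0
    obtain ⟨x, y, w, rfl⟩ := hsp M hM
    by_cases hx : x = 0
    · by_cases hw : w = 0
      · have hy : y ≠ 0 := by
          intro hy
          apply h0
          rw [hx, hy, hw, neg_zero]
          unfold th
          simp
        refine ⟨A * B - B * A, ?_, 2 * y, mul_ne_zero h2 hy, ?_⟩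
        · obtain ⟨⟨z, hz⟩, hz'⟩ := h.memA
          obtain ⟨⟨z1, hz1⟩, hz1'⟩ := h.memB
          obtain ⟨u, hu⟩ := br h2 z z1
          refine ⟨⟨u, by rw [← hu, hz, hz1]⟩, ?_⟩
          rw [sub_mul, mul_assoc, mul_assoc, hz', hz1']
          noncomm_ring
        · have e : A * B - B * A = th A B 1 0 0 (-1) := by
            unfold th
            simp [sub_eq_add_neg]
          rw [e, hP, th_P (A := A) (B := B), hT.th_mul, hT.th_mul, th_add, th_smul, hx, hw]
          congr 1 <;> ring
      · refine ⟨A, h.memA, w, hw, ?_⟩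
        have e1 : th A B y x w (-y) * A + A * th A B y x w (-y) =
            th A B y x w (-y) * th A B 0 1 0 0 + th A B 0 1 0 0 * th A B y x w (-y) := by rw [← th_A]
        rw [e1, hP, th_P (A := A) (B := B), hT.th_mul, hT.th_mul, th_add, th_smul]
        congr 1 <;> ring
    · refine ⟨B, h.memB, x, hx, ?_⟩
      have e1 : th A B y x w (-y) * B + B * th A B y x w (-y) =
          th A B y x w (-y) * th A B 0 0 1 0 + th A B 0 0 1 0 * th A B y x w (-y) := by rw [← th_B]
      rw [e1, hP, th_P (A := A) (B := B), hT.th_mul, hT.th_mul, th_add, th_smul]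
      congr 1 <;> ring
  · intro M hM hMM a ha
    obtain ⟨x, y, w, rfl⟩ := hsp M hM
    rw [hsq, hP] at hMM
    have h1 : y * y + x * w = 1 := by
      have e : (y * y + x * w - 1) • (A * B + B * A) = 0 := by rw [sub_smul, one_smul, hMM, sub_self]
      exact sub_eq_zero.1 ((smul_eq_zero.1 e).resolve_right hPne)
    obtain ⟨g, hg⟩ := h.sl2 (a := a / 2 * (1 + y) + a⁻¹ / 2 * (1 - y)) (b := a / 2 * x - a⁻¹ / 2 * x)
      (c := a / 2 * w - a⁻¹ / 2 * w) (d := a / 2 * (1 - y) + a⁻¹ / 2 * (1 + y)) (by
        field_simp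
        linear_combination (-(a ^ 4) + 2 * a ^ 2 - 1) * h1)
    refine ⟨g, ?_⟩
    rw [hg, hP]
    unfold tz tg
    rw [add_assoc]
    congr 1
    rw [th_P (A := A) (B := B), th_add, th_sub, th_smul, th_smul, th_add]
    congr 1 <;> ring
  · refine ⟨A, h.memA, B, h.memB, ?_, ?_⟩
    · obtain ⟨⟨z, hz⟩, hz'⟩ := h.memA
      obtain ⟨⟨z1, hz1⟩, hz1'⟩ := h.memB
      obtain ⟨u, hu⟩ := br h2 z z1
      refine ⟨⟨u, by rw [← hu, hz, hz1]⟩, ?_⟩
      rw [sub_mul, mul_assoc, mul_assoc, hz', hz1']
      noncomm_ring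
    · intro e
      apply h.ne
      have e1 : A * (A * B - B * A) = -A := by rw [mul_sub, ← mul_assoc, ← mul_assoc, hT.AA, zero_mul, hT.ABA, zero_sub]
      rw [e, mul_zero] at e1
      exact neg_eq_zero.1 e1.symm

/-! ### commuting involutions -/

theorem rho_comm {s t : Gh F} (h : s * t = t * s) : rho F s * rho F t = rho F t * rho F s := by
  rw [← map_mul, h, map_mul]

theorem pj_comm {s t : Gh F} (h : s * t = t * s) : rho F s * pj t = pj t * rho F s := by
  unfold pj
  rw [mul_smul_comm, smul_mul_assoc, mul_sub, sub_mul, rho_comm h, mul_one, one_mul]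

/-- conjugation by an involution commuting with `t` -/
theorem conj_mem (h2 : (2 : F) ≠ 0) {s t : Gh F} (hs : s * s = 1) (h : s * t = t * s) {M : Matrix D1 D1 F}
    (hM : M ∈ AL t) : rho F s * M * rho F s ∈ AL t := by
  have h1 := AL_conj h2 s hM
  have e1 : s⁻¹ = s := inv_eq_of_mul_eq_one_right hs
  rw [e1, h, mul_assoc, hs, mul_one] at h1
  exact h1

theorem Inv.eigen {s t : Gh F} (ht : Inv t) (hs : s * s = 1) (h : s * t = t * s) {e : F} (he : e * e = 1)
    (hN : ∀ N ∈ AL t, rho F s * N * rho F s = e • N → N * N = 0) {N : Matrix D1 D1 F} (hm : N ∈ AL t)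
    (hc : rho F s * N * rho F s = e • N) : N = 0 := by
  by_contra h0
  obtain ⟨M, hM, c, hc0, hMc⟩ := ht.nd N hm h0
  have hS := rho_sq hs
  set S := rho F s with hSdef
  have hM2 := conj_mem ht.two hs h hM
  rw [← hSdef] at hM2
  have hm2 : M + e • (S * M * S) ∈ AL t := Submodule.add_mem _ hM (Submodule.smul_mem _ _ hM2)
  have hSS : ∀ X : Matrix D1 D1 F, S * (S * X) = X := fun X => by rw [← mul_assoc, hS, one_mul]
  have hc2 : S * (M + e • (S * M * S)) * S = e • (M + e • (S * M * S)) := by
    have e1 : S * (S * M * S) * S = M := by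
      calc S * (S * M * S) * S = (S * S) * M * (S * S) := by simp only [mul_assoc]
        _ = M := by rw [hS, one_mul, mul_one]
    rw [mul_add, add_mul, mul_smul_comm, smul_mul_assoc, e1, smul_add, smul_smul, he, one_smul, add_comm]
  have hNS : N * S = e • (S * N) := by
    calc N * S = S * (S * N * S) := by simp only [mul_assoc, hSS]
      _ = _ := by rw [hc, mul_smul_comm]
  have hSN : S * N = e • (N * S) := by rw [hNS, smul_smul, he, one_smul]
  have a1 : N * (S * M * S) = e • (S * (N * M) * S) := by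
    calc N * (S * M * S) = N * S * M * S := by simp only [mul_assoc]
      _ = _ := by rw [hNS]; simp only [smul_mul_assoc, mul_assoc]
  have a2 : S * M * S * N = e • (S * (M * N) * S) := by
    calc S * M * S * N = S * M * (S * N) := by simp only [mul_assoc]
      _ = _ := by rw [hSN]; simp only [mul_smul_comm, mul_assoc]
  have a3 : N * (M + e • (S * M * S)) + (M + e • (S * M * S)) * N = (2 * c) • pj t := by
    have a4 : S * (c • pj t) * S = c • pj t := by
      rw [mul_smul_comm, pj_comm h, smul_mul_assoc, mul_assoc, hS, mul_one]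
    calc N * (M + e • (S * M * S)) + (M + e • (S * M * S)) * N
        = (N * M + M * N) + e • (N * (S * M * S) + S * M * S * N) := by
          simp only [mul_add, add_mul, mul_smul_comm, smul_mul_assoc, smul_add]
          abel
      _ = (N * M + M * N) + S * (N * M + M * N) * S := by
          rw [a1, a2, ← smul_add, smul_smul, he, one_smul, mul_add, add_mul]
      _ = _ := by rw [hMc, a4, ← add_smul, two_mul]
  have b1 := hN _ hm hc
  have b2 := hN _ hm2 hc2
  have b3 := hN _ (Submodule.add_mem _ hm hm2) (by rw [mul_add, add_mul, hc, hc2, ← smul_add])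
  have b4 : (N + (M + e • (S * M * S))) * (N + (M + e • (S * M * S))) = N * N + (M + e • (S * M * S)) * (M + e • (S * M * S)) +
      (N * (M + e • (S * M * S)) + (M + e • (S * M * S)) * N) := by
    generalize M + e • (S * M * S) = Y
    noncomm_ring
  rw [b4, b1, b2, a3, zero_add, zero_add] at b3
  rcases smul_eq_zero.1 b3 with h3 | h3
  · exact mul_ne_zero ht.two hc0 h3
  · exact ht.ne h3

/-- an involution `s` commuting with `t` whose trace on the `-1`-eigenspace of `t` is not zero acts trivially on `AL t` -/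
theorem Inv.triv {s t : Gh F} (ht : Inv t) (hs : s * s = 1) (h : s * t = t * s)
    (htr : Matrix.trace (pj t * rho F s) ≠ 0) {M : Matrix D1 D1 F} (hM : M ∈ AL t) : rho F s * M = M * rho F s := by
  have hS := rho_sq hs
  have key : ∀ N ∈ AL t, rho F s * N * rho F s = (-1 : F) • N → N * N = 0 := by
    intro N hN hc
    obtain ⟨c, hc'⟩ := ht.sqr N hN
    have e1 : N * rho F s = - (rho F s * N) := by
      calc N * rho F s = rho F s * (rho F s * N * rho F s) := by
            rw [mul_assoc, ← mul_assoc (rho F s), hS, one_mul]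
        _ = _ := by rw [hc, mul_smul_comm, neg_smul, one_smul]
    have e2 : Matrix.trace (N * N * rho F s) = - Matrix.trace (N * N * rho F s) := by
      calc Matrix.trace (N * N * rho F s) = Matrix.trace (N * (N * rho F s)) := by rw [mul_assoc]
        _ = - Matrix.trace (N * (rho F s * N)) := by rw [e1, mul_neg, Matrix.trace_neg]
        _ = - Matrix.trace (N * rho F s * N) := by rw [mul_assoc]
        _ = - Matrix.trace (N * (N * rho F s)) := by rw [Matrix.trace_mul_comm]
        _ = _ := by rw [mul_assoc]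
    have e3 : (2 : F) * Matrix.trace (N * N * rho F s) = 0 := by
      rw [two_mul]
      nth_rewrite 1 [e2]
      exact neg_add_cancel _
    have e4 := (mul_eq_zero.1 e3).resolve_left ht.two
    rw [hc', smul_mul_assoc, Matrix.trace_smul, smul_eq_mul] at e4
    rw [hc', (mul_eq_zero.1 e4).resolve_right htr, zero_smul]
  have h1 := ht.eigen hs h (e := -1) (by ring) key (N := M - rho F s * M * rho F s)
    (Submodule.sub_mem _ hM (conj_mem ht.two hs h hM)) (by
      have e1 : rho F s * (rho F s * M * rho F s) * rho F s = M := by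
        calc rho F s * (rho F s * M * rho F s) * rho F s = (rho F s * rho F s) * M * (rho F s * rho F s) := by
              simp only [mul_assoc]
          _ = M := by rw [hS, one_mul, mul_one]
      rw [mul_sub, sub_mul, e1, neg_smul, one_smul, neg_sub])
  calc rho F s * M = rho F s * M * (rho F s * rho F s) := by rw [hS, mul_one]
    _ = rho F s * M * rho F s * rho F s := by simp only [mul_assoc]
    _ = _ := by rw [← sub_eq_zero.1 h1]

/-- a semisimple element of `AL t` invariant under an involution `s` -/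
theorem Inv.exists_z [IsAlgClosed F] {s t : Gh F} (ht : Inv t) (hs : s * s = 1) (h : s * t = t * s) :
    ∃ z ∈ AL t, z * z = pj t ∧ rho F s * z = z * rho F s := by
  have hS := rho_sq hs
  by_contra hno
  push Not at hno
  have key : ∀ N ∈ AL t, rho F s * N * rho F s = (1 : F) • N → N * N = 0 := by
    intro N hN hc
    obtain ⟨c, hc'⟩ := ht.sqr N hN
    by_cases hc0 : c = 0
    · rw [hc', hc0, zero_smul]
    · exfalso
      obtain ⟨r, hr⟩ := IsAlgClosed.exists_pow_nat_eq c (n := 2) (by norm_num)
      have hr0 : r ≠ 0 := by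
        rintro rfl
        apply hc0
        rw [← hr]
        norm_num
      refine hno (r⁻¹ • N) (Submodule.smul_mem _ _ hN) ?_ ?_
      · rw [smul_mul_smul_comm, hc', smul_smul, ← hr]
        have : r⁻¹ * r⁻¹ * r ^ 2 = 1 := by
          field_simp
        rw [this, one_smul]
      · rw [mul_smul_comm, smul_mul_assoc]
        congr 1
        calc rho F s * N = rho F s * N * (rho F s * rho F s) := by rw [hS, mul_one]
          _ = rho F s * N * rho F s * rho F s := by simp only [mul_assoc]
          _ = _ := by rw [hc, one_smul]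
  have h1 : ∀ N ∈ AL t, rho F s * N * rho F s = N → N = 0 := fun N hN hc =>
    ht.eigen hs h (e := 1) (by ring) key hN (by rw [hc, one_smul])
  have h3 : ∀ M ∈ AL t, rho F s * M * rho F s = - M := by
    intro M hM
    have h4 := h1 (M + rho F s * M * rho F s) (Submodule.add_mem _ hM (conj_mem ht.two hs h hM)) (by
      have e1 : rho F s * (rho F s * M * rho F s) * rho F s = M := by
        calc rho F s * (rho F s * M * rho F s) * rho F s = (rho F s * rho F s) * M * (rho F s * rho F s) := by
              simp only [mul_assoc]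
          _ = M := by rw [hS, one_mul, mul_one]
      rw [mul_add, add_mul, e1, add_comm])
    exact eq_neg_of_add_eq_zero_right h4
  obtain ⟨M, hM, M', hM', h5, h6⟩ := ht.cm
  apply h6
  apply h1 _ h5
  have e2 : ∀ X Y : Matrix D1 D1 F, rho F s * (X * Y) * rho F s = rho F s * X * rho F s * (rho F s * Y * rho F s) := by
    intro X Y
    calc rho F s * (X * Y) * rho F s = rho F s * X * 1 * Y * rho F s := by simp only [mul_assoc, one_mul]
      _ = rho F s * X * (rho F s * rho F s) * Y * rho F s := by rw [hS]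
      _ = _ := by simp only [mul_assoc]
  rw [mul_sub, sub_mul, e2, e2, h3 M hM, h3 M' hM', neg_mul_neg, neg_mul_neg]

/-- the left eigenvalue -/
theorem Inv.left' {t : Gh F} (ht : Inv t) {M : Matrix D1 D1 F} (hM : M ∈ AL t) : rho F t * M = - M := by
  have h1 := ht.left M hM
  unfold pj at h1
  rw [smul_mul_assoc, sub_mul, one_mul] at h1
  have h3 : M - rho F t * M = (2 : F) • M := by
    conv_rhs => rw [← h1, smul_smul, mul_inv_cancel₀ ht.two, one_smul]
  rw [two_smul] at h3
  have h4 : rho F t * M = M - (M + M) := by rw [← h3]; abel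
  rw [h4]
  abel

/-- **invariant elements commute** -/
theorem Inv.comm {t t' : Gh F} (ht : Inv t) (ht' : Inv t') (h : t * t' = t' * t)
    (hne : (1 + rho F t') * pj t ≠ 0) {z y : Matrix D1 D1 F} (hz : z ∈ AL t) (hy : y ∈ AL t')
    (hzt : rho F t' * z = z * rho F t') (hyt : rho F t * y = y * rho F t) : z * y = y * z := by
  by_contra h0
  have hy1 : y * rho F t' = -y := hy.2
  have hy2 := ht'.left' hy
  have hz1 : z * rho F t = -z := hz.2
  have hm : z * y - y * z ∈ AL t := by
    obtain ⟨z1, hz1'⟩ := hz.1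
    obtain ⟨y1, hy1'⟩ := hy.1
    obtain ⟨u, hu⟩ := br ht.two z1 y1
    refine ⟨⟨u, by rw [← hu, hz1', hy1']⟩, ?_⟩
    rw [sub_mul, mul_assoc, ← hyt, ← mul_assoc, hz1, mul_assoc y z, hz1, neg_mul, mul_neg]
    abel
  have hm1 : (z * y - y * z) * rho F t' = -(z * y - y * z) := by
    rw [sub_mul, mul_assoc z y, hy1, mul_assoc y z, ← hzt, ← mul_assoc, hy1, mul_neg, neg_mul]
    abel
  have hm2 : rho F t' * (z * y - y * z) = -(z * y - y * z) := by
    rw [mul_sub, ← mul_assoc, hzt, mul_assoc, hy2, ← mul_assoc (rho F t') y z, hy2, mul_neg, neg_mul]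
    abel
  obtain ⟨M', hM', c, hc, hcc⟩ := ht.nd _ hm (sub_ne_zero.2 h0)
  set M := z * y - y * z with hMdef
  set X := (1 + rho F t') * pj t with hX
  have hS := rho_sq ht'.sq
  have hPX : pj t * X = X := by
    rw [hX]
    calc pj t * ((1 + rho F t') * pj t) = pj t * pj t + pj t * rho F t' * pj t := by noncomm_ring
      _ = pj t * pj t + rho F t' * (pj t * pj t) := by rw [← pj_comm h.symm, mul_assoc]
      _ = _ := by rw [pj_sq ht.two ht.sq, add_mul, one_mul]
  have hMX : M * X = 0 := by
    rw [hX, ← mul_assoc, mul_add, mul_one, hm1, add_neg_cancel, zero_mul]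
  have hTX : rho F t' * X = X := by
    rw [hX, ← mul_assoc, mul_add, mul_one, hS, add_comm]
  have e1 : c • X = M * M' * X := by
    calc c • X = (c • pj t) * X := by rw [smul_mul_assoc, hPX]
      _ = (M * M' + M' * M) * X := by rw [hcc]
      _ = M * M' * X := by rw [add_mul, mul_assoc M' M, hMX, mul_zero, add_zero]
  have e2 : c • X = - (c • X) := by
    calc c • X = c • (rho F t' * X) := by rw [hTX]
      _ = rho F t' * (c • X) := by rw [mul_smul_comm]
      _ = rho F t' * (M * M' * X) := by rw [e1]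
      _ = - (M * M' * X) := by
          rw [← mul_assoc (rho F t') (M * M') X, ← mul_assoc (rho F t') M M', hm2, neg_mul, neg_mul]
      _ = _ := by rw [e1]
  have e3 : (2 * c) • X = 0 := by
    rw [mul_smul, two_smul]
    nth_rewrite 1 [e2]
    exact neg_add_cancel _
  rcases smul_eq_zero.1 e3 with h3 | h3
  · exact mul_ne_zero ht.two hc h3
  · exact hne h3

end

end Cfsg.Agent.R2.T1.Mu
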