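import Cfsg.Agent.R2.T1.Mu.Alg
import Cfsg.Agent.R2.T1.Inf.TorL
import Cfsg.Agent.R2.PX.Tr3

/-!
# MU27 (S5771), Q1: the fixed space of an elementary abelian group of order 16 (helper27)

`Q1` : for the 2-generator pairs `t1, t2`, `s1, s2` of involutions of types 32 / 24 the common fixed space (of dimension 2) is
spanned by two pure vectors.
-/

set_option autoImplicit false
set_option maxRecDepth 100000

namespace Cfsg.Agent.R2.T1.Mu

open Cfsg Cfsg.Lie Matrix Module
open Cfsg.Agent.R2.T1 Cfsg.Agent.R2.PX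
open Cfsg.Agent.H943.E7V.Block (D1 rho)
open Cfsg.Agent.H952.F4 (ev)
open Cfsg.Agent.BpExc.TorAll (HAlg)

universe u
section
variable {F : Type u} [Field F]

/-! ### traces and dimensions -/

theorem trace_inv (h2 : (2 : F) ≠ 0) {t : Gh F} (ht : t * t = 1) :
    Matrix.trace (rho F t) = 2 * (ev (V F t) 1 : F) - 56 := by
  have hS := rho_sq ht
  have hp : LinearMap.IsProj (Module.End.eigenspace (V F t) 1) (Matrix.toLin' ((2 : F)⁻¹ • (1 + rho F t))) := by
    constructor
    · intro x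
      rw [Module.End.mem_eigenspace_iff, one_smul, V_apply, Matrix.toLin'_apply, Matrix.smul_mulVec, Matrix.mulVec_smul,
        Matrix.mulVec_mulVec, mul_add, mul_one, hS, add_comm]
    · intro x hx
      rw [Module.End.mem_eigenspace_iff, one_smul, V_apply] at hx
      rw [Matrix.toLin'_apply, Matrix.smul_mulVec, Matrix.add_mulVec, Matrix.one_mulVec, hx, ← two_smul F x, smul_smul,
        inv_mul_cancel₀ h2, one_smul]
  have h1 := hp.trace
  rw [Matrix.trace_toLin'_eq, Matrix.trace_smul, Matrix.trace_add, Matrix.trace_one] at h1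
  have hc : (Fintype.card D1 : F) = 56 := by
    have : Fintype.card D1 = 56 := by
      have := finrank_V (F := F)
      rwa [Module.finrank_fintype_fun_eq_card] at this
    rw [this]
    norm_num
  rw [hc, smul_eq_mul] at h1
  have h3 : Matrix.trace (rho F t) = 2 * (2⁻¹ * (56 + Matrix.trace (rho F t))) - 56 := by
    rw [← mul_assoc, mul_inv_cancel₀ h2]
    ring
  rw [h3, h1]
  rfl

theorem trace_pj (h2 : (2 : F) ≠ 0) {t s : Gh F} (hs : s * s = 1) (hts : (t * s) * (t * s) = 1)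
    (h32 : ev (V F s) 1 = 32) (h24 : ev (V F (t * s)) 1 = 24) : Matrix.trace (pj t * rho F s) ≠ 0 := by
  unfold pj
  rw [smul_mul_assoc, sub_mul, one_mul, Matrix.trace_smul, Matrix.trace_sub, ← map_mul, trace_inv h2 hs, trace_inv h2 hts,
    h32, h24, smul_eq_mul]
  refine mul_ne_zero (inv_ne_zero h2) ?_
  have e : (2 * ((32 : ℕ) : F) - 56 - (2 * ((24 : ℕ) : F) - 56)) = 2 ^ 4 := by
    push_cast
    norm_num
  rw [e]
  exact pow_ne_zero _ h2

theorem ev_one : ev (V F 1) 1 = 56 := by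
  have : Module.End.eigenspace (V F 1) (1 : F) = ⊤ := by
    rw [eq_top_iff]
    intro x _
    rw [Module.End.mem_eigenspace_iff, one_smul, V_one]
  show finrank F ↥(Module.End.eigenspace (V F 1) (1 : F)) = 56
  rw [this, finrank_top, finrank_V]

/-- `V^{t'}` is not contained in `V^t` -/
theorem pj_ne (h2 : (2 : F) ≠ 0) {t t' : Gh F} (ht : t * t = 1) (h : t * t' = t' * t)
    (h32 : ev (V F t) 1 = 32) (h32' : ev (V F t') 1 = 32) (hne : t ≠ t') : (1 + rho F t') * pj t ≠ 0 := by
  intro h0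
  have h1 : (1 + rho F t') * (1 - rho F t) = 0 := by
    unfold pj at h0
    rw [mul_smul_comm] at h0
    exact (smul_eq_zero.1 h0).resolve_left (inv_ne_zero h2)
  have hcomm := rho_comm h
  have hle : Module.End.eigenspace (V F t') 1 ≤ Module.End.eigenspace (V F t) 1 := by
    intro v hv
    rw [Module.End.mem_eigenspace_iff, one_smul, V_apply] at hv ⊢
    have h3 : ((1 + rho F t') * (1 - rho F t)) *ᵥ v = 0 := by rw [h1, Matrix.zero_mulVec]
    have h4 : (1 + rho F t') * (1 - rho F t) = (1 - rho F t) * (1 + rho F t') := by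
      rw [mul_sub, sub_mul, add_mul, add_mul, mul_add, mul_add, hcomm]
      simp only [mul_one, one_mul]
    rw [h4, ← Matrix.mulVec_mulVec, Matrix.add_mulVec, Matrix.one_mulVec, hv, ← two_smul F v, Matrix.mulVec_smul,
      Matrix.sub_mulVec, Matrix.one_mulVec] at h3
    exact (sub_eq_zero.1 ((smul_eq_zero.1 h3).resolve_left h2)).symm
  have heq := Submodule.eq_of_le_of_finrank_eq hle (by
    show ev (V F t') 1 = ev (V F t) 1
    rw [h32, h32'])
  apply hne
  have hrho : rho F t = rho F t' := by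
    refine mat_ext fun b => ?_
    have hS := rho_sq ht
    have e1 : bs F b + rho F t *ᵥ bs F b ∈ Module.End.eigenspace (V F t) 1 := by
      rw [Module.End.mem_eigenspace_iff, one_smul, V_apply, Matrix.mulVec_add, Matrix.mulVec_mulVec, hS, Matrix.one_mulVec,
        add_comm]
    rw [← heq, Module.End.mem_eigenspace_iff, one_smul, V_apply, Matrix.mulVec_add, Matrix.mulVec_mulVec] at e1
    have e2 : ((1 + rho F t') * (1 - rho F t)) *ᵥ bs F b = 0 := by rw [h1, Matrix.zero_mulVec]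
    rw [add_mul, one_mul, mul_sub, mul_one, Matrix.add_mulVec, Matrix.sub_mulVec, Matrix.one_mulVec, Matrix.sub_mulVec] at e2
    have e3 : (2 : F) • (rho F t' *ᵥ bs F b) = (2 : F) • (rho F t *ᵥ bs F b) := by
      rw [two_smul, two_smul]
      have e4 : rho F t' *ᵥ bs F b + rho F t' *ᵥ bs F b =
          (bs F b - rho F t *ᵥ bs F b + (rho F t' *ᵥ bs F b - (rho F t' * rho F t) *ᵥ bs F b)) +
          (rho F t' *ᵥ bs F b + (rho F t' * rho F t) *ᵥ bs F b) - bs F b + rho F t *ᵥ bs F b := by abel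
      rw [e4, e2, e1]
      abel
    have e5 : (2 : F) • (rho F t *ᵥ bs F b - rho F t' *ᵥ bs F b) = 0 := by rw [smul_sub, e3, sub_self]
    exact sub_eq_zero.1 ((smul_eq_zero.1 e5).resolve_left h2)
  exact rho_injective hrho

/-! ### tori -/

/-- a commuting pair `P`, `z` as for `Inv.exp` -/
structure TP (P z : Matrix D1 D1 F) : Prop where
  two : (2 : F) ≠ 0
  PP : P * P = P
  Pz : P * z = z
  zP : z * P = z
  zz : z * z = P

theorem tz_one {P z : Matrix D1 D1 F} (h2 : (2 : F) ≠ 0) : tz P z 1 = 1 := by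
  unfold tz
  rw [inv_one, add_assoc, ← smul_add]
  have e : P + z + (P - z) = (2 : F) • P := by
    rw [two_smul]
    abel
  rw [e, smul_smul, one_div, inv_mul_cancel₀ h2, one_smul, sub_add_cancel]

theorem TP.tz_mul {P z : Matrix D1 D1 F} (h : TP P z) {a b : F} (ha : a ≠ 0) (hb : b ≠ 0) :
    tz P z a * tz P z b = tz P z (a * b) := by
  have e1 : (1 - P) * (1 - P) = 1 - P := by rw [mul_sub, sub_mul, sub_mul, h.PP, one_mul, mul_one, one_mul]; abel
  have e2 : (1 - P) * (P + z) = 0 := by rw [sub_mul, one_mul, mul_add, h.PP, h.Pz, sub_self]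
  have e3 : (1 - P) * (P - z) = 0 := by rw [sub_mul, one_mul, mul_sub, h.PP, h.Pz, sub_self]
  have e4 : (P + z) * (1 - P) = 0 := by rw [mul_sub, mul_one, add_mul, h.PP, h.zP, sub_self]
  have e5 : (P - z) * (1 - P) = 0 := by rw [mul_sub, mul_one, sub_mul, h.PP, h.zP, sub_self]
  have e6 : (P + z) * (P + z) = (2 : F) • (P + z) := by
    rw [mul_add, add_mul, add_mul, h.PP, h.Pz, h.zP, h.zz, two_smul]
    abel
  have e7 : (P + z) * (P - z) = 0 := by
    rw [mul_sub, add_mul, add_mul, h.PP, h.Pz, h.zP, h.zz]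
    abel
  have e8 : (P - z) * (P + z) = 0 := by
    rw [mul_add, sub_mul, sub_mul, h.PP, h.Pz, h.zP, h.zz]
    abel
  have e9 : (P - z) * (P - z) = (2 : F) • (P - z) := by
    rw [mul_sub, sub_mul, sub_mul, h.PP, h.Pz, h.zP, h.zz, two_smul]
    abel
  unfold tz
  generalize 1 - P = R at *
  generalize P + z = U at *
  generalize P - z = W at *
  have h2 := h.two
  have f1 : b / 2 * (a / 2 * 2) = a * b / 2 := by field_simp
  have f2 : b⁻¹ / 2 * (a⁻¹ / 2 * 2) = (a * b)⁻¹ / 2 := by field_simp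
  simp only [mul_add, add_mul, mul_smul_comm, smul_mul_assoc, e1, e2, e3, e4, e5, e6, e7, e8, e9,
    smul_zero, add_zero, zero_add, smul_smul, f1, f2]

theorem TP.tz_pow {P z : Matrix D1 D1 F} (h : TP P z) {a : F} (ha : a ≠ 0) (k : ℕ) :
    tz P z a ^ k = tz P z (a ^ k) := by
  induction k with
  | zero => rw [pow_zero, pow_zero, tz_one h.two]
  | succ k ih => rw [pow_succ, ih, h.tz_mul (pow_ne_zero _ ha) ha, pow_succ]

theorem TP.fix {P z : Matrix D1 D1 F} (h : TP P z) {a : F} (ha1 : a ≠ 1) {v : D1 → F}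
    (hv : tz P z a *ᵥ v = v) : P *ᵥ v = 0 := by
  have h2 := h.two
  have e6 : (P + z) * (P + z) = (2 : F) • (P + z) := by
    rw [mul_add, add_mul, add_mul, h.PP, h.Pz, h.zP, h.zz, two_smul]
    abel
  have e7 : (P + z) * (P - z) = 0 := by
    rw [mul_sub, add_mul, add_mul, h.PP, h.Pz, h.zP, h.zz]
    abel
  have e8 : (P - z) * (P + z) = 0 := by
    rw [mul_add, sub_mul, sub_mul, h.PP, h.Pz, h.zP, h.zz]
    abel
  have e9 : (P - z) * (P - z) = (2 : F) • (P - z) := by
    rw [mul_sub, sub_mul, sub_mul, h.PP, h.Pz, h.zP, h.zz, two_smul]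
    abel
  have e4 : (P + z) * (1 - P) = 0 := by rw [mul_sub, mul_one, add_mul, h.PP, h.zP, sub_self]
  have e5 : (P - z) * (1 - P) = 0 := by rw [mul_sub, mul_one, sub_mul, h.PP, h.zP, sub_self]
  have k1 : (P + z) *ᵥ v = 0 := by
    have h3 : ((P + z) * tz P z a) *ᵥ v = (P + z) *ᵥ v := by rw [← Matrix.mulVec_mulVec, hv]
    have h4 : (P + z) * tz P z a = a • (P + z) := by
      unfold tz
      rw [mul_add, mul_add, e4, mul_smul_comm, mul_smul_comm, e6, e7, smul_zero, zero_add, add_zero, smul_smul,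
        div_mul_cancel₀ a h2]
    rw [h4, Matrix.smul_mulVec] at h3
    have h5 : (a - 1) • ((P + z) *ᵥ v) = 0 := by rw [sub_smul, h3, one_smul, sub_self]
    exact (smul_eq_zero.1 h5).resolve_left (sub_ne_zero.2 ha1)
  have k2 : (P - z) *ᵥ v = 0 := by
    have h3 : ((P - z) * tz P z a) *ᵥ v = (P - z) *ᵥ v := by rw [← Matrix.mulVec_mulVec, hv]
    have h4 : (P - z) * tz P z a = a⁻¹ • (P - z) := by
      unfold tz
      rw [mul_add, mul_add, e5, mul_smul_comm, mul_smul_comm, e8, e9, smul_zero, zero_add, zero_add, smul_smul,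
        div_mul_cancel₀ a⁻¹ h2]
    rw [h4, Matrix.smul_mulVec] at h3
    have h5 : (a⁻¹ - 1) • ((P - z) *ᵥ v) = 0 := by rw [sub_smul, h3, one_smul, sub_self]
    exact (smul_eq_zero.1 h5).resolve_left (sub_ne_zero.2 fun e => ha1 (inv_eq_one.1 e))
  have k3 : (2 : F) • (P *ᵥ v) = 0 := by
    have : (2 : F) • P = (P + z) + (P - z) := by
      rw [two_smul]
      abel
    rw [← Matrix.smul_mulVec, this, Matrix.add_mulVec, k1, k2, add_zero]
  exact (smul_eq_zero.1 k3).resolve_left h2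

theorem TP.fix' {P z : Matrix D1 D1 F} (h : TP P z) {a : F} {v : D1 → F} (hv : P *ᵥ v = 0) : tz P z a *ᵥ v = v := by
  have h1 : z *ᵥ v = 0 := by rw [← h.zP, ← Matrix.mulVec_mulVec, hv, Matrix.mulVec_zero]
  unfold tz
  rw [Matrix.add_mulVec, Matrix.add_mulVec, Matrix.sub_mulVec, Matrix.one_mulVec, Matrix.smul_mulVec, Matrix.smul_mulVec,
    Matrix.add_mulVec, Matrix.sub_mulVec, hv, h1]
  simp

theorem Commute.tz {P z X : Matrix D1 D1 F} (h1 : _root_.Commute P X) (h3 : _root_.Commute z X) (a : F) :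
    _root_.Commute (Mu.tz P z a) X := by
  unfold Mu.tz
  exact (((_root_.Commute.one_left X).sub_left h1).add_left ((h1.add_left h3).smul_left _)).add_left
    ((h1.sub_left h3).smul_left _)

theorem Inv.tp {t : Gh F} (ht : Inv t) {z : Matrix D1 D1 F} (hz : z ∈ AL t) (hzz : z * z = pj t) : TP (pj t) z :=
  ⟨ht.two, pj_sq ht.two ht.sq, ht.left z hz, ht.right z hz, hzz⟩

theorem fix_iff (h2 : (2 : F) ≠ 0) {t : Gh F} {v : D1 → F} : pj t *ᵥ v = 0 ↔ V F t v = v := by
  unfold pj
  rw [Matrix.smul_mulVec, smul_eq_zero, Matrix.sub_mulVec, Matrix.one_mulVec, V_apply, sub_eq_zero]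
  constructor
  · rintro (h | h)
    · exact absurd h (inv_ne_zero h2)
    · exact h.symm
  · intro h
    exact Or.inr h.symm

theorem four_pow {G : Type*} [Group G] {a b c d : G} (hab : _root_.Commute a b) (hac : _root_.Commute a c)
    (had : _root_.Commute a d) (hbc : _root_.Commute b c) (hbd : _root_.Commute b d) (hcd : _root_.Commute c d) (k : ℕ) :
    (a * b * c * d) ^ k = a ^ k * b ^ k * c ^ k * d ^ k := by
  rw [_root_.Commute.mul_pow ((had.mul_left hbd).mul_left hcd), _root_.Commute.mul_pow (hac.mul_left hbc),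
    _root_.Commute.mul_pow hab]

theorem V_pow_fix {x : Gh F} {v : D1 → F} (h : V F x v = v) (k : ℕ) : V F (x ^ k) v = v := by
  induction k with
  | zero => rw [pow_zero, V_one]
  | succ k ih => rw [pow_succ, V_mul, h, ih]

/-- a torus element `g` of `t` -/
structure Tor1 (t g : Gh F) (l : ℕ) : Prop where
  prime : l.Prime
  pow : g ^ l = 1
  fix : ∀ k : ℕ, ¬ l ∣ k → ∀ v : D1 → F, V F (g ^ k) v = v → V F t v = v
  fix' : ∀ v : D1 → F, V F t v = v → V F g v = v

theorem Inv.tor1 {t : Gh F} (ht : Inv t) {z : Matrix D1 D1 F} (hz : z ∈ AL t) (hzz : z * z = pj t) {l : ℕ} (hl : l.Prime)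
    {a : F} (ha : IsPrimitiveRoot a l) : ∃ g : Gh F, rho F g = tz (pj t) z a ∧ Tor1 t g l := by
  have ha0 : a ≠ 0 := ha.ne_zero hl.ne_zero
  have hT := ht.tp hz hzz
  obtain ⟨g, hg⟩ := ht.exp z hz hzz a ha0
  refine ⟨g, hg, hl, ?_, ?_, ?_⟩
  · apply rho_injective
    rw [map_pow, hg, hT.tz_pow ha0, ha.pow_eq_one, tz_one ht.two, map_one]
  · intro k hk v hv
    rw [V_apply, map_pow, hg, hT.tz_pow ha0] at hv
    exact (fix_iff ht.two).1 (hT.fix (fun e => hk ((ha.pow_eq_one_iff_dvd k).1 e)) hv)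
  · intro v hv
    rw [V_apply, hg]
    exact hT.fix' ((fix_iff ht.two).2 hv)

end

section
variable {K : Type u} [Field K] [IsAlgClosed K] {p : ℕ} [Fact p.Prime] [CharP K p]

theorem Inv.of (hk : HAlg p K) (h2 : (2 : K) ≠ 0) {t : Gh K} (ht : t * t = 1) (h32 : ev (V K t) 1 = 32) : Inv t := by
  have hp : Nat.Coprime 2 p := by
    rw [Nat.coprime_primes Nat.prime_two Fact.out]
    rintro rfl
    exact h2 (by exact_mod_cast CharP.cast_eq_zero K 2)
  obtain ⟨A, B, h⟩ := exists_Sl h2 (frameK p hk two_ne_zero hp (by rw [pow_two, ht])) h32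
  exact h.inv h2 ht

theorem exists_root (hp : p.Prime) {l : ℕ} (hl : l.Prime) (h : p < l) : ∃ a : K, IsPrimitiveRoot a l := by
  have hne : (l : K) ≠ 0 := by
    intro e
    have := (CharP.cast_eq_zero_iff K p l).1 e
    rcases (Nat.dvd_prime hl).1 this with h1 | h1
    · exact hp.one_lt.ne' h1
    · omega
  have : NeZero (l : K) := ⟨hne⟩
  exact HasEnoughRootsOfUnity.exists_primitiveRoot K l

/-- the fixed space of a semisimple element is spanned by conjugates of weight vectors -/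
theorem fix_two (hk : HAlg p K) {x : Gh K} {N : ℕ} (hN0 : N ≠ 0) (hN : N.Coprime p) (hx : x ^ N = 1)
    {U : Submodule K (D1 → K)} (hU : ∀ v, v ∈ U ↔ V K x v = v) (hf : finrank K ↥U = 2) :
    ∃ u1 u2 : D1 → K, Pure K u1 ∧ Pure K u2 ∧ LinearIndependent K ![u1, u2] ∧ U = Submodule.span K {u1, u2} := by
  classical
  obtain ⟨g, c, hg, -⟩ := frameK p hk hN0 hN hx
  have hUe : U = Module.End.eigenspace (V K x) 1 := by
    ext v
    rw [hU, Module.End.mem_eigenspace_iff, one_smul]
  have h1 : (Finset.univ.filter fun s : D1 => ((wt s c : Kˣ) : K) = 1).card = 2 := by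
    rw [← ev_V_Phi, ← ev_V_of_conj hg]
    show finrank K ↥(Module.End.eigenspace (V K x) 1) = 2
    rw [← hUe, hf]
  obtain ⟨b1, b2, hb, hf2⟩ := Finset.card_eq_two.1 h1
  have hw : ∀ v, v ∈ U ↔ ∀ b, b ≠ b1 → b ≠ b2 → V K g v b = 0 := by
    intro v
    rw [hU]
    have e1 : V K x v = v ↔ V K (Phi K c) (V K g v) = V K g v := by
      rw [hg, V_mul, V_mul, V_inv]
      constructor
      · intro h
        rw [h]
      · intro h
        have := congrArg (V K g⁻¹) h
        rwa [V_inv, V_inv] at this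
    rw [e1]
    have e2 : ∀ b : D1, ((wt b c : Kˣ) : K) = 1 ↔ b = b1 ∨ b = b2 := by
      intro b
      have : b ∈ (Finset.univ.filter fun s : D1 => ((wt s c : Kˣ) : K) = 1) ↔ b ∈ ({b1, b2} : Finset D1) := by rw [hf2]
      rw [Finset.mem_filter, Finset.mem_insert, Finset.mem_singleton] at this
      exact ⟨fun h => this.1 ⟨Finset.mem_univ _, h⟩, fun h => (this.2 h).2⟩
    constructor
    · intro h b h1 h3
      have h4 := congrFun h b
      rw [V_Phi_apply] at h4
      have h5 : (((wt b c : Kˣ) : K) - 1) * V K g v b = 0 := by rw [sub_mul, h4, one_mul, sub_self]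
      rcases mul_eq_zero.1 h5 with h6 | h6
      · rcases (e2 b).1 (sub_eq_zero.1 h6) with h7 | h7
        · exact absurd h7 h1
        · exact absurd h7 h3
      · exact h6
    · intro h
      funext b
      rw [V_Phi_apply]
      by_cases h1 : b = b1 ∨ b = b2
      · rw [(e2 b).2 h1, one_mul]
      · rw [not_or] at h1
        rw [h b h1.1 h1.2, mul_zero]
  have hb1 : bs K b1 b1 = 1 := by rw [bs, Pi.single_eq_same]
  have hb2 : bs K b2 b2 = 1 := by rw [bs, Pi.single_eq_same]
  have hb0 : ∀ b b' : D1, b ≠ b' → bs K b' b = 0 := fun b b' h => by rw [bs, Pi.single_eq_of_ne h]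
  refine ⟨V K g⁻¹ (bs K b1), V K g⁻¹ (bs K b2), pure_V (Tr.bs_pure b1) _, pure_V (Tr.bs_pure b2) _, ?_, ?_⟩
  · rw [LinearIndependent.pair_iff]
    intro s t h
    have h3 := congrArg (V K g) h
    rw [map_add, map_smul, map_smul, V_inv', V_inv', map_zero] at h3
    constructor
    · have := congrFun h3 b1
      rw [Pi.add_apply, Pi.smul_apply, Pi.smul_apply, hb1, hb0 b1 b2 hb, smul_eq_mul, mul_one, smul_zero, add_zero] at this
      exact this
    · have := congrFun h3 b2
      rw [Pi.add_apply, Pi.smul_apply, Pi.smul_apply, hb2, hb0 b2 b1 hb.symm, smul_zero, zero_add, smul_eq_mul, mul_one] at this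
      exact this
  · ext v
    rw [Submodule.mem_span_pair, hw]
    constructor
    · intro h
      refine ⟨V K g v b1, V K g v b2, ?_⟩
      rw [← map_smul, ← map_smul, ← map_add]
      have e : V K g v b1 • bs K b1 + V K g v b2 • bs K b2 = V K g v := by
        funext b
        rw [Pi.add_apply, Pi.smul_apply, Pi.smul_apply, smul_eq_mul, smul_eq_mul]
        by_cases h1 : b = b1
        · subst h1
          rw [hb1, hb0 b b2 hb]
          ring
        · by_cases h3 : b = b2
          · subst h3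
            rw [hb2, hb0 b b1 h1]
            ring
          · rw [hb0 b b1 h1, hb0 b b2 h3, h b h1 h3]
            ring
      rw [e, V_inv]
    · rintro ⟨s, t, rfl⟩ b h1 h3
      rw [map_add, map_smul, map_smul, V_inv', V_inv', Pi.add_apply, Pi.smul_apply, Pi.smul_apply, hb0 b b1 h1, hb0 b b2 h3,
        smul_zero, smul_zero, add_zero]

/-- **Q1** -/
theorem Q1 (hk : HAlg p K) (h2 : (2 : K) ≠ 0) {t1 t2 s1 s2 : Gh K} (q1 : t1 * t1 = 1) (q2 : t2 * t2 = 1)
    (r1 : s1 * s1 = 1) (r2 : s2 * s2 = 1) (c12 : t1 * t2 = t2 * t1) (d12 : s1 * s2 = s2 * s1)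
    (c11 : t1 * s1 = s1 * t1) (c1 : t1 * s2 = s2 * t1) (c21 : t2 * s1 = s1 * t2) (c22 : t2 * s2 = s2 * t2)
    (e1 : ev (V K t1) 1 = 32) (e2 : ev (V K t2) 1 = 32) (e12 : ev (V K (t1 * t2)) 1 = 32) (f1 : ev (V K s1) 1 = 32)
    (f2 : ev (V K s2) 1 = 32) (g11 : ev (V K (t1 * s1)) 1 = 24)
    (g12 : ev (V K (t1 * s2)) 1 = 24) (g21 : ev (V K (t2 * s1)) 1 = 24) (g22 : ev (V K (t2 * s2)) 1 = 24)
    {U : Submodule K (D1 → K)} (hU : ∀ v, v ∈ U ↔ V K t1 v = v ∧ V K t2 v = v ∧ V K s1 v = v ∧ V K s2 v = v)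
    (hf : finrank K ↥U = 2) :
    ∃ u1 u2 : D1 → K, Pure K u1 ∧ Pure K u2 ∧ LinearIndependent K ![u1, u2] ∧ U = Submodule.span K {u1, u2} := by
  have hp : p.Prime := Fact.out
  have i1 := Inv.of hk h2 q1 e1
  have i2 := Inv.of hk h2 q2 e2
  have j1 := Inv.of hk h2 r1 f1
  have hsq : ∀ a b : Gh K, a * a = 1 → b * b = 1 → a * b = b * a → (a * b) * (a * b) = 1 := by
    intro a b ha hb hab
    calc a * b * (a * b) = a * (b * a) * b := by group
      _ = a * a * (b * b) := by rw [← hab]; group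
      _ = 1 := by rw [ha, hb, one_mul]
  have hne : ∀ a b : Gh K, a * a = 1 → ev (V K (a * b)) 1 ≠ 56 → a ≠ b := by
    rintro a b ha hab rfl
    rw [ha, ev_one] at hab
    exact hab rfl
  -- invariant semisimple elements
  obtain ⟨z1, hz1, hzz1, k12⟩ := i1.exists_z q2 c12.symm
  obtain ⟨z2, hz2, hzz2, k21⟩ := i2.exists_z q1 c12
  obtain ⟨z3, hz3, hzz3, k34⟩ := j1.exists_z r2 d12.symm
  have k13 := i1.triv r1 c11.symm (trace_pj h2 r1 (hsq _ _ q1 r1 c11) f1 g11) hz1
  have k14 := i1.triv r2 c1.symm (trace_pj h2 r2 (hsq _ _ q1 r2 c1) f2 g12) hz1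
  have k23 := i2.triv r1 c21.symm (trace_pj h2 r1 (hsq _ _ q2 r1 c21) f1 g21) hz2
  have k24 := i2.triv r2 c22.symm (trace_pj h2 r2 (hsq _ _ q2 r2 c22) f2 g22) hz2
  have k31 := j1.triv q1 c11 (trace_pj h2 q1 (hsq _ _ r1 q1 c11.symm) e1 (by rw [← c11, g11])) hz3
  have k32 := j1.triv q2 c21 (trace_pj h2 q2 (hsq _ _ r1 q2 c21.symm) e2 (by rw [← c21, g21])) hz3
  -- they commute
  have m12 := i1.comm i2 c12 (pj_ne h2 q1 c12 e1 e2 (hne _ _ q1 (by rw [e12]; norm_num))) hz1 hz2 k12 k21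
  have m13 := i1.comm j1 c11 (pj_ne h2 q1 c11 e1 f1 (hne _ _ q1 (by rw [g11]; norm_num))) hz1 hz3 k13 k31
  have m23 := i2.comm j1 c21 (pj_ne h2 q2 c21 e2 f1 (hne _ _ q2 (by rw [g21]; norm_num))) hz2 hz3 k23 k32
  -- tori
  obtain ⟨l1, hl1, hl1'⟩ := Nat.exists_infinite_primes (p + 3)
  obtain ⟨l2, hl2, hl2'⟩ := Nat.exists_infinite_primes (l1 + 1)
  obtain ⟨l3, hl3, hl3'⟩ := Nat.exists_infinite_primes (l2 + 1)
  obtain ⟨a1, ha1⟩ := exists_root (K := K) hp hl1' (by omega)
  obtain ⟨a2, ha2⟩ := exists_root (K := K) hp hl2' (by omega)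
  obtain ⟨a3, ha3⟩ := exists_root (K := K) hp hl3' (by omega)
  obtain ⟨x1, hx1, T1⟩ := i1.tor1 hz1 hzz1 hl1' ha1
  obtain ⟨x2, hx2, T2⟩ := i2.tor1 hz2 hzz2 hl2' ha2
  obtain ⟨x3, hx3, T3⟩ := j1.tor1 hz3 hzz3 hl3' ha3
  have cp : ∀ {a b : Gh K}, a * b = b * a → _root_.Commute (rho K a) (rho K b) := fun h => rho_comm h
  have cpj : ∀ {a : Gh K} {X : Matrix D1 D1 K}, _root_.Commute (rho K a) X → _root_.Commute (pj a) X := by
    intro a X h
    unfold pj
    exact ((_root_.Commute.one_left X).sub_left h).smul_left _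
  have hinj : ∀ {a b : Gh K}, _root_.Commute (rho K a) (rho K b) → _root_.Commute a b := by
    intro a b h
    apply rho_injective
    rw [map_mul, map_mul]
    exact h
  have y12 : _root_.Commute x1 x2 := by
    apply hinj
    rw [hx1, hx2]
    refine Commute.tz ?_ ?_ _
    · exact (Commute.tz (cpj (cpj (cp c12)).symm) (cpj k21).symm a2).symm
    · exact (Commute.tz (cpj k12) m12.symm a2).symm
  have y13 : _root_.Commute x1 x3 := by
    apply hinj
    rw [hx1, hx3]
    refine Commute.tz ?_ ?_ _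
    · exact (Commute.tz (cpj (cpj (cp c11)).symm) (cpj k31).symm a3).symm
    · exact (Commute.tz (cpj k13) m13.symm a3).symm
  have y23 : _root_.Commute x2 x3 := by
    apply hinj
    rw [hx2, hx3]
    refine Commute.tz ?_ ?_ _
    · exact (Commute.tz (cpj (cpj (cp c21)).symm) (cpj k32).symm a3).symm
    · exact (Commute.tz (cpj k23) m23.symm a3).symm
  have y14 : _root_.Commute x1 s2 := by
    apply hinj
    rw [hx1]
    exact Commute.tz (cpj (cp c1)) (Eq.symm k14) _
  have y24 : _root_.Commute x2 s2 := by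
    apply hinj
    rw [hx2]
    exact Commute.tz (cpj (cp c22)) (Eq.symm k24) _
  have y34 : _root_.Commute x3 s2 := by
    apply hinj
    rw [hx3]
    exact Commute.tz (cpj (cp d12)) (Eq.symm k34) _
  have hpow := four_pow y12 y13 y14 y23 y24 y34
  have hdv : ∀ {g : Gh K} {l k : ℕ}, g ^ l = 1 → l ∣ k → g ^ k = 1 := by
    rintro g l _ h ⟨m, rfl⟩
    rw [pow_mul, h, one_pow]
  have r2' : s2 ^ 2 = 1 := by rw [pow_two, r2]
  have nd : ∀ {a b : ℕ}, a.Prime → b.Prime → a ≠ b → ¬ a ∣ b := by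
    intro a b ha hb hab h
    rcases (Nat.dvd_prime hb).1 h with h1 | h1
    · exact ha.one_lt.ne' h1
    · exact hab h1
  have hN : x1 ^ (2 * l1 * l2 * l3) = 1 := hdv T1.pow ⟨2 * l2 * l3, by ring⟩
  refine fix_two hk (x := x1 * x2 * x3 * s2) (N := 2 * l1 * l2 * l3) (by
    have := hl1'.pos
    have := hl2'.pos
    have := hl3'.pos
    positivity) ?_ ?_ ?_ hf
  · have h3 : Nat.Coprime 2 p := by
      rw [Nat.coprime_primes Nat.prime_two hp]
      rintro rfl
      exact h2 (by exact_mod_cast CharP.cast_eq_zero K 2)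
    have h4 : ∀ {l : ℕ}, l.Prime → p < l → Nat.Coprime l p := by
      intro l hl h
      rw [Nat.coprime_primes hl hp]
      omega
    exact ((h3.mul_left (h4 hl1' (by omega))).mul_left (h4 hl2' (by omega))).mul_left (h4 hl3' (by omega))
  · rw [hpow, hN, hdv T2.pow ⟨2 * l1 * l3, by ring⟩, hdv T3.pow ⟨2 * l1 * l2, by ring⟩, hdv r2' ⟨l1 * l2 * l3, by ring⟩]
    simp
  · intro v
    rw [hU]
    constructor
    · rintro ⟨h3, h4, h5, h6⟩
      rw [V_mul, V_mul, V_mul, h6, T3.fix' v h5, T2.fix' v h4, T1.fix' v h3]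
    · intro h
      refine ⟨?_, ?_, ?_, ?_⟩
      · refine T1.fix (2 * l2 * l3) ?_ v ?_
        · intro hd
          rcases (hl1'.dvd_mul).1 hd with hd | hd
          · rcases (hl1'.dvd_mul).1 hd with hd | hd
            · exact nd hl1' Nat.prime_two (by omega) hd
            · exact nd hl1' hl2' (by omega) hd
          · exact nd hl1' hl3' (by omega) hd
        · have h7 := V_pow_fix h (2 * l2 * l3)
          rw [hpow, hdv T2.pow ⟨2 * l3, by ring⟩, hdv T3.pow ⟨2 * l2, by ring⟩, hdv r2' ⟨l2 * l3, by ring⟩, mul_one,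
            mul_one, mul_one] at h7
          exact h7
      · refine T2.fix (2 * l1 * l3) ?_ v ?_
        · intro hd
          rcases (hl2'.dvd_mul).1 hd with hd | hd
          · rcases (hl2'.dvd_mul).1 hd with hd | hd
            · exact nd hl2' Nat.prime_two (by omega) hd
            · exact nd hl2' hl1' (by omega) hd
          · exact nd hl2' hl3' (by omega) hd
        · have h7 := V_pow_fix h (2 * l1 * l3)
          rw [hpow, hdv T1.pow ⟨2 * l3, by ring⟩, hdv T3.pow ⟨2 * l1, by ring⟩, hdv r2' ⟨l1 * l3, by ring⟩, one_mul,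
            mul_one, mul_one] at h7
          exact h7
      · refine T3.fix (2 * l1 * l2) ?_ v ?_
        · intro hd
          rcases (hl3'.dvd_mul).1 hd with hd | hd
          · rcases (hl3'.dvd_mul).1 hd with hd | hd
            · exact nd hl3' Nat.prime_two (by omega) hd
            · exact nd hl3' hl1' (by omega) hd
          · exact nd hl3' hl2' (by omega) hd
        · have h7 := V_pow_fix h (2 * l1 * l2)
          rw [hpow, hdv T1.pow ⟨2 * l2, by ring⟩, hdv T2.pow ⟨2 * l1, by ring⟩, hdv r2' ⟨l1 * l2, by ring⟩, one_mul,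
            one_mul, mul_one] at h7
          exact h7
      · have h7 := V_pow_fix h (l1 * l2 * l3)
        have h8 : s2 ^ (l1 * l2 * l3) = s2 := by
          have hodd : Odd (l1 * l2 * l3) := by
            rw [Nat.odd_mul, Nat.odd_mul]
            exact ⟨⟨hl1'.odd_of_ne_two (by omega), hl2'.odd_of_ne_two (by omega)⟩, hl3'.odd_of_ne_two (by omega)⟩
          obtain ⟨m, hm⟩ := hodd
          rw [hm, pow_succ, pow_mul, r2', one_pow, one_mul]
        rw [hpow, hdv T1.pow ⟨l2 * l3, by ring⟩, hdv T2.pow ⟨l1 * l3, by ring⟩, hdv T3.pow ⟨l1 * l2, by ring⟩, h8, one_mul,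
          one_mul, one_mul] at h7
        exact h7

end

end Cfsg.Agent.R2.T1.Mu
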