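import Cfsg.Agent.R2.T1.Mu.Pure
import Cfsg.Agent.R2.T1.Mu2.Nf
import Cfsg.Agent.R2.PX.Tr3

/-!
# MU27 (S5771): `Pure` (`DD x x = 0`) and `Sing` (`Mu x = 0`) agree for odd characteristic (helper27)
-/

set_option autoImplicit false

namespace Cfsg.Agent.R2.T1.Mu

open Cfsg Cfsg.Lie Matrix Module
open Cfsg.Agent.R2.T1 Cfsg.Agent.R2.PX
open Cfsg.Agent.H943.E7V.Block (D1 rho)

universe u
variable {F : Type u} [Field F]

theorem pure_iff_sing (h2 : (2 : F) ≠ 0) (x : D1 → F) : Pure F x ↔ Mu2.Sing x := by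
  by_cases h0 : x = 0
  · subst h0
    exact ⟨fun _ => Mu2.Mu_zero, fun _ => pure_zero⟩
  constructor
  · intro h
    obtain ⟨g, c, -, hg⟩ := pure_top h2 h h0
    rw [← Mu2.sing_V (g := g), hg]
    exact Mu2.sing_bs _ _
  · intro h
    obtain ⟨m, hm⟩ : ∃ m, x m ≠ 0 := by
      by_contra hno
      push Not at hno
      exact h0 (funext hno)
    obtain ⟨g, hg, -⟩ := Mu2.nf h hm
    rw [hg]
    exact pure_smul (pure_V (Tr.bs_pure m) g) _

end Cfsg.Agent.R2.T1.Mu
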