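import Cfsg.Agent.R2.T1.Mu.Root
import Cfsg.Agent.R2.T1.Five.Beta

/-!
# MU27 (S5771): the `sl₂` attached to an involution with 32 fixed weights (helper27)

* `Tri E F` : `E`, `F` generate a (sum of natural modules) copy of `2 × 2` matrices;
* `AA t` : the elements of the Lie algebra killing the fixed space of `t`;
* `exists_tri` : `AA t` is spanned by `E`, `EF - FE`, `F`.
-/

set_option autoImplicit false
set_option maxRecDepth 100000

namespace Cfsg.Agent.R2.T1.Mu

open Cfsg Cfsg.Lie Matrix Module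
open Cfsg.Agent.ChevalleyStructure.RootVec
open Cfsg.Agent.R2.T1 Cfsg.Agent.R2.PX
open Cfsg.Agent.H943.E7V.Block (D1 rho)
open Cfsg.Agent.R2.T1.Five (hb BL exists_beta BL_lt)
open Cfsg.Agent.H952.F4 (ev)

universe u
section
variable {F : Type u} [Field F]

/-! ### the range of `del` is closed under the bracket -/

theorem br_NM (h2 : (2 : F) ≠ 0) {r : ℕ} (hr : r < 126) (z : chevE7.Idx → F) :
    ∃ w, NM F r * del F z - del F z * NM F r = del F w := by
  have h1 := del_L h2 (xs F r 1) z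
  have h3 := del_L h2 (xs F r (-1)) z
  have e1 : (xs F r (1 : F))⁻¹ = xs F r (-1) := by
    rw [inv_eq_iff_mul_eq_one]
    apply rho_injective
    rw [map_mul, rho_xs' hr, rho_xs' hr, map_one, mul_add, mul_one, add_mul, one_mul, smul_mul_smul_comm, NM_mul_self hr,
      smul_zero, add_zero, one_smul, neg_smul, one_smul]
    abel
  have e2 : (xs F r (-1 : F))⁻¹ = xs F r 1 := by rw [← e1, inv_inv]
  rw [e1, rho_xs' hr, rho_xs' hr, one_smul, neg_smul, one_smul] at h1
  rw [e2, rho_xs' hr, rho_xs' hr, one_smul, neg_smul, one_smul] at h3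
  refine ⟨(2 : F)⁻¹ • (L F (xs F r 1) z - L F (xs F r (-1)) z), ?_⟩
  rw [map_smul, map_sub, h1, h3]
  have e3 : (1 + NM F r) * del F z * (1 + -NM F r) - (1 + -NM F r) * del F z * (1 + NM F r) =
      (2 : F) • (NM F r * del F z - del F z * NM F r) := by
    rw [two_smul]
    noncomm_ring
  rw [e3, smul_smul, inv_mul_cancel₀ h2, one_smul]

theorem Hi_eq {i : ℕ} (hi : i < 7) : Hi F i = Hd F (chevE7.simple i) := by
  rw [Hd_eq]
  have h : ∀ i < 7, ∀ j < 7, (chevE7.coroot.getD (chevE7.simple i) #[]).getD j 0 = if j = i then 1 else 0 := by decide +kernel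
  rw [Finset.sum_eq_single (⟨i, hi⟩ : Fin chevE7.rank)]
  · rw [h i hi i hi, if_pos rfl, Int.cast_one, one_smul]
  · intro j _ hj
    rw [h i hi j j.2, if_neg fun e => hj (Fin.ext e), Int.cast_zero, zero_smul]
  · intro h
    exact absurd (Finset.mem_univ _) h

theorem br_Hi (h2 : (2 : F) ≠ 0) {i : ℕ} (hi : i < 7) (z : chevE7.Idx → F) :
    ∃ w, Hi F i * del F z - del F z * Hi F i = del F w := by
  have hr : chevE7.simple i < 126 := simple_lt7 i hi
  rw [Hi_eq hi, ← NM_comm_neg hr]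
  obtain ⟨w1, h1⟩ := br_NM h2 (r := 125 - chevE7.simple i) (by omega) z
  obtain ⟨w2, h3⟩ := br_NM h2 hr w1
  obtain ⟨w3, h4⟩ := br_NM h2 hr z
  obtain ⟨w4, h5⟩ := br_NM h2 (r := 125 - chevE7.simple i) (by omega) w3
  refine ⟨w2 - w4, ?_⟩
  rw [map_sub, ← h3, ← h5, ← h1, ← h4]
  noncomm_ring

/-- **the range of `del` is a Lie algebra** -/
theorem br (h2 : (2 : F) ≠ 0) (y z : chevE7.Idx → F) : ∃ w, del F y * del F z - del F z * del F y = del F w := by
  have h : ∀ (S : Finset chevE7.Idx) (c : chevE7.Idx → F), (∑ j ∈ S, c j • del F (Pi.single j 1)) * del F z -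
      del F z * (∑ j ∈ S, c j • del F (Pi.single j 1)) ∈ LinearMap.range (del F) := by
    intro S c
    rw [Finset.sum_mul, Finset.mul_sum, ← Finset.sum_sub_distrib]
    refine Submodule.sum_mem _ fun j _ => ?_
    rw [smul_mul_assoc, mul_smul_comm, ← smul_sub]
    refine Submodule.smul_mem _ _ ?_
    rcases j with i | s
    · rw [del_inl]
      obtain ⟨w, hw⟩ := br_Hi h2 i.2 z
      exact ⟨w, hw.symm⟩
    · rw [del_inr]
      obtain ⟨w, hw⟩ := br_NM h2 s.2 z
      exact ⟨w, hw.symm⟩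
  have e : y = ∑ j, y j • (Pi.single j 1 : chevE7.Idx → F) := by
    funext k
    rw [Finset.sum_apply, Finset.sum_eq_single k]
    · rw [Pi.smul_apply, Pi.single_eq_same, smul_eq_mul, mul_one]
    · intro j _ hj
      rw [Pi.smul_apply, Pi.single_eq_of_ne (Ne.symm hj), smul_zero]
    · intro h
      exact absurd (Finset.mem_univ _) h
  obtain ⟨w, hw⟩ := h Finset.univ y
  refine ⟨w, ?_⟩
  rw [hw]
  conv_lhs => rw [e, map_sum]
  simp only [map_smul]

/-! ### elements of the Lie algebra killing the weights orthogonal to `β` -/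

theorem chkHd : (BL.all fun β => (List.range 7).all fun i => (List.range 7).all fun j =>
    decide ((W56.map fun b => if wr β b = 0 then mmn b i * chevE8.cartan j b else 0).sum =
      (if i = j then 16 else 0) - 8 * (chevE7.cartan j β * (chevE7.coroot.getD β #[]).getD i 0))) = true := by
  decide +kernel

theorem chkRt : (BL.all fun β => (List.range 126).all fun s => Nat.beq s β || (Nat.beq s (125 - β) ||
    W56.any fun b => decide (wr β b = 0) && (mv s b).isSome)) = true := by decide +kernel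

theorem chkW : ∀ k ∈ W56, k < 240 ∧ rt chevE8 k 7 = 1 := by decide +kernel

theorem exists_row {β : ℕ} (hβ : β ∈ BL) {s : ℕ} (hs : s < 126) (h1 : s ≠ β) (h2 : s ≠ 125 - β) :
    ∃ (a b : D1) (c : ℤ), wr β (nn b) = 0 ∧ mv s (nn b) = some (nn a, c) ∧ c * c = 1 := by
  have h := List.all_eq_true.1 (List.all_eq_true.1 chkRt β hβ) s (List.mem_range.2 hs)
  rw [Bool.or_eq_true, Bool.or_eq_true] at h
  rcases h with h | h | h
  · exact absurd (Nat.eq_of_beq_eq_true h) h1
  · exact absurd (Nat.eq_of_beq_eq_true h) h2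
  · obtain ⟨k, hk, h⟩ := List.any_eq_true.1 h
    rw [Bool.and_eq_true, decide_eq_true_eq] at h
    obtain ⟨hk1, hk2⟩ := chkW k hk
    let b : D1 := ⟨⟨k, hk1⟩, hk2⟩
    rcases mv_spec hs b with h' | ⟨a, c, h', hc, -⟩
    · have : mv s k = none := h'
      rw [this] at h
      exact absurd h.2 (by simp)
    · exact ⟨a, b, c, h.1, h', hc⟩

/-- **the elements of the Lie algebra killing the weights orthogonal to `β`** -/
theorem std (h2 : (2 : F) ≠ 0) {β : ℕ} (hβ : β ∈ BL) {z : chevE7.Idx → F}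
    (hz : ∀ b : D1, wr β (nn b) = 0 → del F z *ᵥ bs F b = 0) :
    ∃ x y w : F, del F z = x • NM F β + y • Hd F β + w • NM F (125 - β) := by
  have hb := BL_lt hβ
  have h16 : (16 : F) ≠ 0 := by
    have : (16 : F) = 2 ^ 4 := by norm_num
    rw [this]
    exact pow_ne_zero _ h2
  have hr : ∀ s : Fin chevE7.nroots, s.val ≠ β → s.val ≠ 125 - β → z (Sum.inr s) = 0 := by
    intro s h1 h3
    obtain ⟨a, b, c, h4, h5, h6⟩ := exists_row hβ s.2 h1 h3
    have h7 := congrFun (hz b h4) a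
    rw [bs, Matrix.mulVec_single_one, Matrix.col_apply, del_entry z s.2 h5] at h7
    exact (mul_eq_zero.1 h7).resolve_right (cast_ne h6)
  have hne : β ≠ 125 - β := by omega
  have hdel : del F z = (∑ i : Fin chevE7.rank, z (Sum.inl i) • Hi F i) + (z (Sum.inr ⟨β, hb⟩) • NM F β +
      z (Sum.inr ⟨125 - β, by show _ < 126; omega⟩) • NM F (125 - β)) := by
    rw [del_apply]
    congr 1
    rw [← Finset.add_sum_erase _ _ (Finset.mem_univ (⟨β, hb⟩ : Fin chevE7.nroots)),
      ← Finset.add_sum_erase _ _ (Finset.mem_erase.2 ⟨fun e => hne (Fin.ext_iff.1 e).symm,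
        Finset.mem_univ (⟨125 - β, by show _ < 126; omega⟩ : Fin chevE7.nroots)⟩), Finset.sum_eq_zero, add_zero]
    intro s hs
    rw [Finset.mem_erase, Finset.mem_erase] at hs
    rw [hr s (fun e => hs.2.1 (Fin.ext e)) (fun e => hs.1 (Fin.ext e)), zero_smul]
  have hca : ∀ b : D1, wr β (nn b) = 0 → ∑ j : Fin chevE7.rank, z (Sum.inl j) * ((chevE8.cartan j (nn b) : ℤ) : F) = 0 := by
    intro b h0
    have h1 := hz b h0
    have h3 : mv β (nn b) = none ∧ mv (125 - β) (nn b) = none := by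
      rcases wr_spec hb b with h | h | h
      · omega
      · exact h.2
      · omega
    rw [hdel, Matrix.add_mulVec, Matrix.add_mulVec, Matrix.smul_mulVec, Matrix.smul_mulVec, NM_bs_none h3.1,
      NM_bs_none h3.2, smul_zero, smul_zero, add_zero, add_zero, Matrix.sum_mulVec] at h1
    simp only [Matrix.smul_mulVec, Hi, diag_bs, smul_smul] at h1
    rw [← Finset.sum_smul] at h1
    have h4 := congrFun h1 b
    rw [Pi.smul_apply, bs, Pi.single_eq_same, smul_eq_mul, mul_one] at h4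
    exact h4
  have hi : ∀ i : Fin chevE7.rank, z (Sum.inl i) = ((∑ j : Fin chevE7.rank, z (Sum.inl j) * ((chevE7.cartan j β : ℤ) : F)) / 2) *
      (((chevE7.coroot.getD β #[]).getD i 0 : ℤ) : F) := by
    intro i
    have h1 : ∑ b : D1, (if wr β (nn b) = 0 then ((mmn (nn b) i : ℤ) : F) *
        ∑ j : Fin chevE7.rank, z (Sum.inl j) * ((chevE8.cartan j (nn b) : ℤ) : F) else 0) = 0 := by
      refine Finset.sum_eq_zero fun b _ => ?_
      split_ifs with h
      · rw [hca b h, mul_zero]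
      · rfl
    have h3 : ∑ b : D1, (if wr β (nn b) = 0 then ((mmn (nn b) i : ℤ) : F) *
        ∑ j : Fin chevE7.rank, z (Sum.inl j) * ((chevE8.cartan j (nn b) : ℤ) : F) else 0) =
        ∑ j : Fin chevE7.rank, z (Sum.inl j) * (((if i.val = j.val then 16 else 0) - 8 * (chevE7.cartan j β *
          (chevE7.coroot.getD β #[]).getD i 0) : ℤ) : F) := by
      have h4 : ∀ b : D1, (if wr β (nn b) = 0 then ((mmn (nn b) i : ℤ) : F) *
          ∑ j : Fin chevE7.rank, z (Sum.inl j) * ((chevE8.cartan j (nn b) : ℤ) : F) else 0) =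
          ∑ j : Fin chevE7.rank, z (Sum.inl j) * ((if wr β (nn b) = 0 then mmn (nn b) i * chevE8.cartan j (nn b) else 0 : ℤ) : F) := by
        intro b
        split_ifs
        · rw [Finset.mul_sum]
          refine Finset.sum_congr rfl fun j _ => ?_
          push_cast
          ring
        · simp
      rw [Finset.sum_congr rfl fun b _ => h4 b, Finset.sum_comm]
      refine Finset.sum_congr rfl fun j _ => ?_
      rw [← Finset.mul_sum, ← Int.cast_sum, sumD1 (fun k => if wr β k = 0 then mmn k i * chevE8.cartan j k else 0)]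
      have h5 := of_decide_eq_true (List.all_eq_true.1 (List.all_eq_true.1 (List.all_eq_true.1 chkHd β hβ) i
        (List.mem_range.2 i.2)) j (List.mem_range.2 j.2))
      rw [h5]
    rw [h1] at h3
    have h4 : ∑ j : Fin chevE7.rank, z (Sum.inl j) * (((if i.val = j.val then 16 else 0) - 8 * (chevE7.cartan j β *
          (chevE7.coroot.getD β #[]).getD i 0) : ℤ) : F) = 16 * z (Sum.inl i) -
        8 * (∑ j : Fin chevE7.rank, z (Sum.inl j) * ((chevE7.cartan j β : ℤ) : F)) *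
          (((chevE7.coroot.getD β #[]).getD i 0 : ℤ) : F) := by
      have h5 : ∀ j : Fin chevE7.rank, z (Sum.inl j) * (((if i.val = j.val then 16 else 0) - 8 * (chevE7.cartan j β *
          (chevE7.coroot.getD β #[]).getD i 0) : ℤ) : F) = (if i = j then 16 * z (Sum.inl j) else 0) -
          8 * (z (Sum.inl j) * ((chevE7.cartan j β : ℤ) : F)) * (((chevE7.coroot.getD β #[]).getD i 0 : ℤ) : F) := by
        intro j
        by_cases h : i = j
        · rw [if_pos (congrArg Fin.val h), if_pos h]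
          push_cast
          ring
        · rw [if_neg (fun e => h (Fin.ext e)), if_neg h]
          push_cast
          ring
      rw [Finset.sum_congr rfl fun j _ => h5 j, Finset.sum_sub_distrib, Finset.sum_ite_eq, if_pos (Finset.mem_univ _),
        ← Finset.sum_mul, ← Finset.mul_sum]
    rw [h4] at h3
    have h6 : (16 : F) * z (Sum.inl i) = 16 * ((∑ j : Fin chevE7.rank, z (Sum.inl j) * ((chevE7.cartan j β : ℤ) : F)) / 2 *
      (((chevE7.coroot.getD β #[]).getD i 0 : ℤ) : F)) := by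
      rw [sub_eq_zero.1 h3.symm]
      field_simp
      ring
    exact mul_left_cancel₀ h16 h6
  refine ⟨z (Sum.inr ⟨β, hb⟩), (∑ j : Fin chevE7.rank, z (Sum.inl j) * ((chevE7.cartan j β : ℤ) : F)) / 2,
    z (Sum.inr ⟨125 - β, by show _ < 126; omega⟩), ?_⟩
  rw [hdel, Hd_eq, Finset.smul_sum]
  have h7 : ∑ i : Fin chevE7.rank, z (Sum.inl i) • Hi F i = ∑ i : Fin chevE7.rank,
      ((∑ j : Fin chevE7.rank, z (Sum.inl j) * ((chevE7.cartan j β : ℤ) : F)) / 2) •
        (((chevE7.coroot.getD β #[]).getD i 0 : ℤ) : F) • Hi F i := by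
    refine Finset.sum_congr rfl fun i _ => ?_
    rw [smul_smul, ← hi i]
  rw [h7]
  abel

/-! ### matrix units -/

/-- `A`, `B` generate a copy of the `2 × 2` matrices -/
structure Tri (A B : Matrix D1 D1 F) : Prop where
  AA : A * A = 0
  BB : B * B = 0
  ABA : A * B * A = A
  BAB : B * A * B = B

theorem Tri.of_NM {β : ℕ} (hβ : β < 126) : Tri (NM F β) (NM F (125 - β)) := by
  refine ⟨NM_mul_self hβ, NM_mul_self (by omega), NM_neg_mul hβ, ?_⟩
  have := NM_neg_mul (F := F) (r := 125 - β) (by omega)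
  rwa [sub_sub_r hβ] at this

theorem Tri.conj {A B : Matrix D1 D1 F} (h : Tri A B) (g : Gh F) :
    Tri (rho F g * A * rho F g⁻¹) (rho F g * B * rho F g⁻¹) := by
  have e : ∀ X Y : Matrix D1 D1 F, rho F g * X * rho F g⁻¹ * (rho F g * Y * rho F g⁻¹) = rho F g * (X * Y) * rho F g⁻¹ := by
    intro X Y
    calc rho F g * X * rho F g⁻¹ * (rho F g * Y * rho F g⁻¹)
        = rho F g * X * (rho F g⁻¹ * rho F g) * Y * rho F g⁻¹ := by simp only [mul_assoc]
      _ = _ := by rw [rho_inv_mul']; simp only [mul_assoc, mul_one, one_mul]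
  refine ⟨?_, ?_, ?_, ?_⟩
  · rw [e, h.AA, mul_zero, zero_mul]
  · rw [e, h.BB, mul_zero, zero_mul]
  · rw [e, e, h.ABA]
  · rw [e, e, h.BAB]

theorem rho_hb {β : ℕ} (x : Fˣ) : rho F (Phi F (hb β x)) = Matrix.diagonal fun b : D1 => ((x ^ wr β (nn b) : Fˣ) : F) := by
  rw [rho_Phi]
  congr 1
  funext b
  congr 1
  unfold wt hb wr
  rw [sum_range7 (fun i => (chevE7.coroot.getD β #[]).getD i 0 * chevE8.cartan i (nn b))]
  have h : ∀ S : Finset (Fin chevE7.rank), ∏ i ∈ S, (x ^ ChevalleyStructure.Columns.cor chevE7 β i) ^ chevE8.cartan i (nn b) =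
      x ^ ∑ i ∈ S, (chevE7.coroot.getD β #[]).getD i 0 * chevE8.cartan i (nn b) := by
    intro S
    induction S using Finset.induction_on with
    | empty => rw [Finset.prod_empty, Finset.sum_empty, _root_.zpow_zero]
    | insert i S hi ih =>
      rw [Finset.prod_insert hi, Finset.sum_insert hi, ih, _root_.zpow_add, _root_.zpow_mul]
      rfl
  exact h Finset.univ

/-- the involution of a root -/
theorem rho_hb_neg {β : ℕ} (hβ : β < 126) : rho F (Phi F (hb β (-1))) =
    1 - (2 : F) • (NM F β * NM F (125 - β) + NM F (125 - β) * NM F β) := by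
  rw [rho_hb]
  refine mat_ext fun b => ?_
  have e1 := NM_neg_NM (F := F) hβ b
  have e2 := NM_neg_NM (F := F) (r := 125 - β) (by omega) b
  rw [sub_sub_r hβ] at e2
  rw [diag_bs, Matrix.sub_mulVec, Matrix.one_mulVec, Matrix.smul_mulVec, Matrix.add_mulVec, ← Matrix.mulVec_mulVec,
    ← Matrix.mulVec_mulVec, e1, e2]
  rcases wr_spec hβ b with ⟨h1, h3, h4⟩ | ⟨h1, h3, h4⟩ | ⟨h1, h3, h4⟩
  · rw [h1, if_pos h4, if_neg h3, zero_smul, zero_add, one_smul, _root_.zpow_neg_one, inv_neg, inv_one, two_smul, Units.val_neg,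
      Units.val_one, neg_smul, one_smul]
    abel
  · rw [h1, if_pos h4, if_pos h3, zero_smul, zero_add, smul_zero, sub_zero, zpow_zero, Units.val_one, one_smul]
  · rw [h1, if_neg h4, if_pos h3, zero_smul, add_zero, one_smul, zpow_one, two_smul, Units.val_neg, Units.val_one,
      neg_smul, one_smul]
    abel

/-! ### the Lie algebra attached to an involution -/

/-- the elements of the Lie algebra killing the fixed space of the involution `t` -/
def AL (t : Gh F) : Submodule F (Matrix D1 D1 F) where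
  carrier := {M | (∃ z, del F z = M) ∧ M * rho F t = -M}
  add_mem' := by
    rintro _ _ ⟨⟨z, rfl⟩, h⟩ ⟨⟨y, rfl⟩, h'⟩
    exact ⟨⟨z + y, map_add _ _ _⟩, by rw [add_mul, h, h', _root_.neg_add]⟩
  zero_mem' := ⟨⟨0, map_zero _⟩, by rw [zero_mul, neg_zero]⟩
  smul_mem' := by
    rintro c _ ⟨⟨z, rfl⟩, h⟩
    exact ⟨⟨c • z, map_smul _ _ _⟩, by rw [smul_mul_assoc, h, smul_neg]⟩

theorem mem_AL {t : Gh F} {M : Matrix D1 D1 F} : M ∈ AL t ↔ (∃ z, del F z = M) ∧ M * rho F t = -M := Iff.rfl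

theorem AL_conj (h2 : (2 : F) ≠ 0) {t : Gh F} (g : Gh F) {M : Matrix D1 D1 F} (hM : M ∈ AL t) :
    rho F g * M * rho F g⁻¹ ∈ AL (g * t * g⁻¹) := by
  obtain ⟨⟨z, rfl⟩, h⟩ := hM
  refine ⟨⟨L F g z, del_L h2 g z⟩, ?_⟩
  have e : rho F g * del F z * rho F g⁻¹ * rho F (g * t * g⁻¹) = rho F g * (del F z * rho F t) * rho F g⁻¹ := by
    rw [map_mul, map_mul]
    calc rho F g * del F z * rho F g⁻¹ * (rho F g * rho F t * rho F g⁻¹)
        = rho F g * del F z * (rho F g⁻¹ * rho F g) * rho F t * rho F g⁻¹ := by simp only [mul_assoc]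
      _ = _ := by rw [rho_inv_mul']; simp only [mul_assoc, mul_one, one_mul]
  rw [e, h, mul_neg, neg_mul]

/-- the data of an involution with 32 fixed weights -/
structure Sl (t : Gh F) (A B : Matrix D1 D1 F) : Prop where
  tri : Tri A B
  rho_eq : rho F t = 1 - (2 : F) • (A * B + B * A)
  memA : A ∈ AL t
  memB : B ∈ AL t
  span : ∀ M ∈ AL t, ∃ x y w : F, M = x • A + y • (A * B - B * A) + w • B
  expA : ∀ c : F, ∃ g : Gh F, rho F g = 1 + c • A
  expB : ∀ c : F, ∃ g : Gh F, rho F g = 1 + c • B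
  ne : A ≠ 0

theorem Sl.conj (h2 : (2 : F) ≠ 0) {t : Gh F} {A B : Matrix D1 D1 F} (h : Sl t A B) (g : Gh F) :
    Sl (g * t * g⁻¹) (rho F g * A * rho F g⁻¹) (rho F g * B * rho F g⁻¹) := by
  have e : ∀ X Y : Matrix D1 D1 F, rho F g * X * rho F g⁻¹ * (rho F g * Y * rho F g⁻¹) = rho F g * (X * Y) * rho F g⁻¹ := by
    intro X Y
    calc rho F g * X * rho F g⁻¹ * (rho F g * Y * rho F g⁻¹)
        = rho F g * X * (rho F g⁻¹ * rho F g) * Y * rho F g⁻¹ := by simp only [mul_assoc]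
      _ = _ := by rw [rho_inv_mul']; simp only [mul_assoc, mul_one, one_mul]
  have hexp : ∀ X : Matrix D1 D1 F, (∀ c : F, ∃ u : Gh F, rho F u = 1 + c • X) → ∀ c : F, ∃ u : Gh F,
      rho F u = 1 + c • (rho F g * X * rho F g⁻¹) := by
    intro X hX c
    obtain ⟨u, hu⟩ := hX c
    refine ⟨g * u * g⁻¹, ?_⟩
    rw [map_mul, map_mul, hu, mul_add, mul_one, add_mul, rho_mul_inv', mul_smul_comm, smul_mul_assoc]
  refine ⟨h.tri.conj g, ?_, AL_conj h2 g h.memA, AL_conj h2 g h.memB, ?_, hexp A h.expA, hexp B h.expB, ?_⟩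
  · rw [e, e, map_mul, map_mul, h.rho_eq, mul_sub, sub_mul, mul_one, rho_mul_inv', mul_smul_comm, smul_mul_assoc, mul_add,
      add_mul]
  · intro M hM
    have h1 := AL_conj h2 g⁻¹ hM
    have e1 : g⁻¹ * (g * t * g⁻¹) * g⁻¹⁻¹ = t := by group
    rw [e1] at h1
    obtain ⟨x, y, w, h3⟩ := h.span _ h1
    refine ⟨x, y, w, ?_⟩
    have e2 : M = rho F g * (rho F g⁻¹ * M * rho F g⁻¹⁻¹) * rho F g⁻¹ := by
      rw [inv_inv]
      calc M = 1 * M * 1 := by rw [one_mul, mul_one]
        _ = rho F g * rho F g⁻¹ * M * (rho F g * rho F g⁻¹) := by rw [rho_mul_inv']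
        _ = _ := by simp only [mul_assoc]
    rw [e2, h3, e, e, mul_add, mul_add, add_mul, add_mul, mul_smul_comm, smul_mul_assoc, mul_smul_comm, smul_mul_assoc,
      mul_smul_comm, smul_mul_assoc, mul_sub, sub_mul]
  · intro h0
    apply h.ne
    calc A = (rho F g⁻¹ * rho F g) * A * (rho F g⁻¹ * rho F g) := by rw [rho_inv_mul', one_mul, mul_one]
      _ = rho F g⁻¹ * (rho F g * A * rho F g⁻¹) * rho F g := by simp only [mul_assoc]
      _ = 0 := by rw [h0, mul_zero, zero_mul]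

theorem Sl.std (h2 : (2 : F) ≠ 0) {β : ℕ} (hβ : β ∈ BL) : Sl (Phi F (hb β (-1))) (NM F β) (NM F (125 - β)) := by
  have hlt := BL_lt hβ
  have hT := Tri.of_NM (F := F) hlt
  have hmem : ∀ s : ℕ, s < 126 → (NM F s * rho F (Phi F (hb β (-1))) = - NM F s) → NM F s ∈ AL (Phi F (hb β (-1))) :=
    fun s hs h => ⟨⟨_, del_inr ⟨s, hs⟩⟩, h⟩
  refine ⟨hT, rho_hb_neg hlt, hmem _ hlt ?_, hmem _ (by omega) ?_, ?_, fun c => ⟨xs F β c, rho_xs' hlt c⟩,
    fun c => ⟨xs F (125 - β) c, rho_xs' (by omega) c⟩, (IsRt.of_NM hlt).ne⟩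
  · rw [rho_hb_neg hlt, mul_sub, mul_one, mul_smul_comm, mul_add, ← mul_assoc, ← mul_assoc, hT.AA, zero_mul, zero_add,
      hT.ABA, two_smul]
    abel
  · rw [rho_hb_neg hlt, mul_sub, mul_one, mul_smul_comm, mul_add, ← mul_assoc, ← mul_assoc, hT.BB, zero_mul, add_zero,
      hT.BAB, two_smul]
    abel
  · rintro _ ⟨⟨z, rfl⟩, h⟩
    have h1 : ∀ b : D1, wr β (nn b) = 0 → del F z *ᵥ bs F b = 0 := by
      intro b h0
      have h3 := congrArg (fun M => M *ᵥ bs F b) h
      rw [← Matrix.mulVec_mulVec, rho_hb, diag_bs, h0, zpow_zero, Units.val_one, one_smul, Matrix.neg_mulVec] at h3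
      have h4 : (2 : F) • (del F z *ᵥ bs F b) = 0 := by
        rw [two_smul]
        nth_rewrite 1 [h3]
        exact neg_add_cancel _
      exact (smul_eq_zero.1 h4).resolve_left h2
    obtain ⟨x, y, w, h3⟩ := Mu.std h2 hβ h1
    exact ⟨x, y, w, by rw [h3, NM_comm_neg hlt]⟩

/-- **an involution with 32 fixed weights** -/
theorem exists_Sl (h2 : (2 : F) ≠ 0) {t : Gh F}
    (h : ∃ (g : Gh F) (c : Fin chevE7.rank → Fˣ), Phi F c = g * t * g⁻¹ ∧ c ^ 2 = 1) (h32 : ev (V F t) 1 = 32) :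
    ∃ A B : Matrix D1 D1 F, Sl t A B := by
  obtain ⟨β, hβ, g, hg⟩ := exists_beta h2 h h32
  have h1 := (Sl.std h2 hβ).conj h2 g⁻¹
  have e : g⁻¹ * Phi F (hb β (-1)) * g⁻¹⁻¹ = t := by
    rw [hg]
    group
  rw [e] at h1
  exact ⟨_, _, h1⟩

end

end Cfsg.Agent.R2.T1.Mu
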